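import Cfsg.Agent.TH.Ex.Mu.Defs
import Cfsg.Agent.TH.Sim.LieMain
import Cfsg.Agent.TH.Ex.Si.Spec
import Cfsg.Agent.H889.Enum.Glue
import Cfsg.Agent.S0806

/-!
# S3541, several simple factors: the rows of Lie type of the table (helper52)

`boxDegL : BoxDegL`.
-/

set_option autoImplicit false
set_option maxHeartbeats 400000

namespace Cfsg.Agent.TH.Ex.Mu

open Cfsg Cfsg.Agent.OrdDiv Cfsg.Agent.H902 Cfsg.Agent.H902.Names Cfsg.Agent.H290.ElReg Cfsg.Agent.H290.ElTab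
  Cfsg.Agent.H252.EN Cfsg.Agent.TH.Sim.LieN

namespace DgL

/-- the bound for the degrees -/
def rL (X : Art.Sh) (q : ℕ) : ℕ := max (lc X q) (if Ex X q then 0 else lp X q)

/-- the bound for the indices -/
def iL (X : Art.Sh) (q : ℕ) : ℕ :=
  if X = .L 2 ∧ q ∉ ({2, 3, 5, 7, 9, 11} : Finset ℕ) then q + 1 else if Ex X q then 0 else li X q

/-- the second characteristic -/
def sc (X : Art.Sh) (q : ℕ) : ℕ :=
  if X = .L 2 ∧ q = 7 ∨ X = .C 2 ∧ q = 3 then 2 else if X = .L 3 ∧ q = 2 then 7 else if X = .U 4 ∧ q = 2 then 3 else 1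

theorem row : ∀ x ∈ reg 82, 82 < rL x.1 (x.2.1 ^ x.2.2) ∨
    (x.1 = .L 2 ∧ (x.2.1 ^ x.2.2 = 4 ∨ x.2.1 ^ x.2.2 = 5 ∨ x.2.1 ^ x.2.2 = 9) ∨ x.1 = .L 4 ∧ x.2.1 ^ x.2.2 = 2) ∨
    ∃ y ∈ tab, y.t = od x.1 x.2.1 x.2.2 ∧ ouN x.1 x.2.1 x.2.2 ∣ y.ou ∧ y.R ≤ rL x.1 (x.2.1 ^ x.2.2) ∧
      y.ex = x.2.1 * sc x.1 (x.2.1 ^ x.2.2) ∧ y.on = 0 ∧ y.al = 0 ∧
      (y.lm ≤ iL x.1 (x.2.1 ^ x.2.2) ∨ ¬ y.t ∣ (y.lm - 1).factorial) := by decide +kernel

variable {N : Type} [Group N] {g : Grp} {X : Art.Sh} {l a p : ℕ}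

theorem not_dvd_sc (hp : p.Prime) (hl : ¬ IsLieTypeChar p N) (hg : IsLie g X l a) (h : OrdDiv.Real g N) :
    ¬ p ∣ sc X (l ^ a) := fun hd => hl (by
  unfold sc at hd
  split_ifs at hd with h1 h2 h3
  · obtain rfl := (Nat.prime_dvd_prime_iff_eq hp Nat.prime_two).1 hd
    rcases h1 with ⟨rfl, hq⟩ | ⟨rfl, hq⟩
    · exact lie_two_of_l27 (isL hg h hq)
    · exact lie_two_of_s43 (isS hg h hq)
  · obtain rfl := (Nat.prime_dvd_prime_iff_eq hp Nat.prime_seven).1 hd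
    obtain ⟨rfl, hq⟩ := h2
    obtain ⟨K, _, _, hK, ⟨e⟩⟩ := isL hg h hq
    have := Fact.mk Nat.prime_seven
    exact Or.inl ⟨ZMod 7, inferInstance, inferInstance, inferInstance, 2, le_rfl, by simp,
      ⟨e.trans (S0255.result (ZMod.card 7) hK).some.symm⟩⟩
  · obtain rfl := (Nat.prime_dvd_prime_iff_eq hp Nat.prime_three).1 hd
    obtain ⟨rfl, hq⟩ := h3
    obtain ⟨K, _, _, hK, ⟨e⟩⟩ := isU hg h hq
    exact Or.inr (Or.inl ⟨ZMod 3, inferInstance, inferInstance, inferInstance, 2, le_rfl, by simp,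
      ⟨e.trans (S0822.result hK (ZMod.card 3)).some⟩⟩)
  · exact absurd (Nat.dvd_one.1 hd) hp.one_lt.ne')

theorem alt_of (hg : IsLie g X l a) (h : OrdDiv.Real g N)
    (hx : X = .L 2 ∧ (l ^ a = 4 ∨ l ^ a = 5 ∨ l ^ a = 9) ∨ X = .L 4 ∧ l ^ a = 2) : IsAlternating N := by
  rcases hx with ⟨rfl, hq | hq | hq⟩ | ⟨rfl, hq⟩ <;> obtain ⟨K, _, _, hK, ⟨e⟩⟩ := isL hg h hq
  · exact ⟨5, le_rfl, ⟨e.trans (S0252.result hK).some⟩⟩
  · exact ⟨5, le_rfl, ⟨e.trans (S0253.result hK).some⟩⟩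
  · exact ⟨6, by decide, ⟨e.trans (S0254.result hK).some⟩⟩
  · exact ⟨8, by decide, ⟨e.trans (S0256.result hK).some⟩⟩

variable [Finite N] [IsSimpleGroup N]

theorem rL_le (hc : ¬ IsMulCommutative N) (hg : IsLie g X l a) (h : OrdDiv.Real g N)
    (hr : Art.Real X l a (Nat.card N)) {F : Type} [Field F] (hF : (l : F) ≠ 0) {n : ℕ} (hf : Fth n F N) :
    rL X (l ^ a) ≤ n := by
  refine max_le (bd_lc hg h hr hF n (hf.pr l)) ?_
  split_ifs with hx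
  · exact Nat.zero_le _
  · exact ls_le (fun h => hc ⟨⟨h⟩⟩) (ls_lp hg h hr hx) hf hF

theorem iL_le (hc : ¬ IsMulCommutative N) (hg : IsLie g X l a) (h : OrdDiv.Real g N)
    (hr : Art.Real X l a (Nat.card N)) {U : Subgroup N} (hU : U ≠ ⊤) : iL X (l ^ a) ≤ U.index := by
  unfold iL
  split_ifs with h1 hx
  · obtain ⟨rfl, hq⟩ := h1
    obtain ⟨K, _, _, hK, ⟨e⟩⟩ := isL hg h rfl
    rw [← Subgroup.index_map_of_bijective (f := e.toMonoidHom) e.bijective U]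
    refine (S0806.result hK hq).1 _ fun h1 => hU ?_
    rw [← Subgroup.index_eq_one, Subgroup.index_map_of_bijective (f := e.toMonoidHom) e.bijective U] at h1
    exact Subgroup.index_eq_one.1 h1
  · exact Nat.zero_le _
  · exact li_le hc hg h hr hx U hU

end DgL

open DgL in
/-- **[DEG-L]** -/
theorem boxDegL : BoxDegL := by
  rintro p n F _ _ N _ _ _ hp hn hc hf hl ⟨hA, g, X, l, a, hg, h, hr, hx, hlp⟩
  have h0 : ¬ p ∣ l := fun h1 => hlp ((Nat.prime_dvd_prime_iff_eq hp hr.hp).1 h1).symm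
  have hF : ∀ (K : Type) [Field K] [CharP K p], (l : K) ≠ 0 := fun K _ _ h1 => h0 ((CharP.cast_eq_zero_iff K p l).1 h1)
  rcases row _ hx with h1 | h1 | ⟨y, hy, h1, h2, h3, h4, h5, h6, h7⟩
  · exact absurd ((rL_le hc hg h hr (hF F) hf).trans hn) (not_le.2 h1)
  · exact absurd (alt_of hg h h1) hA
  have h8 : Nat.card N = y.t := (real_eq hr).trans h1.symm
  refine ⟨y, hy, h8, ?_, fun K _ _ m hm => h3.trans (rL_le hc hg h hr (hF K) hm), fun h9 => ?_, Or.inl h5,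
    fun U hU => ?_, fun s _ => ?_, Or.inl h6⟩
  · rw [H889.Enum.aut_ouN (fun h => hc ⟨⟨h⟩⟩) hg h hr, h8]
    exact Nat.mul_dvd_mul_right h2 _
  · exact ((Nat.Prime.dvd_mul hp).1 (h4 ▸ h9)).elim h0 (not_dvd_sc hp hl hg h)
  · rcases h7 with h7 | h7
    · exact h7.trans (iL_le hc hg h hr hU)
    · by_contra h9
      exact h7 (h8 ▸ (Si.card_dvd_factorial hU).trans (Nat.factorial_dvd_factorial (by omega)))
  · unfold cnt
    rw [h6, if_neg (by omega), if_neg (by omega), ← h8]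
    exact Set.ncard_le_card _

end Cfsg.Agent.TH.Ex.Mu
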