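import Cfsg.Agent.TH.Ex.Mu.Defs
import Cfsg.Agent.TH.Ex1.Enum
import Cfsg.Agent.H921.SporMore
import Cfsg.Agent.H921.SporJ1
import Cfsg.Agent.H921.SporJ2
import Cfsg.Agent.H921.SporJ3
import Cfsg.Agent.H921.SporJ4
import Cfsg.Agent.H921.SporCo
import Cfsg.Agent.H921.SporMcL
import Cfsg.Agent.H921.SporSuz
import Cfsg.Agent.H921.SporHe
import Cfsg.Agent.H921.SporRu
import Cfsg.Agent.H921.SporON11
import Cfsg.Agent.H921.SporLy
import Cfsg.Agent.H921.SporFi
import Cfsg.Agent.H921.SporFi24
import Cfsg.Agent.H921.SporTits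
import Cfsg.Agent.H489.DegLy
import Cfsg.Agent.H489.DegTh
import Cfsg.Agent.H517.EP.McLDat
import Cfsg.Agent.H806.LsFiTwo
import Cfsg.Agent.H502.EP.HN
import Cfsg.Agent.H840.EP.Th
import Cfsg.Agent.H444.EP.Mon

/-!
# S3541, several simple factors: the sporadic rows of the table of the degrees (helper45)
-/

set_option autoImplicit false

namespace Cfsg.Agent.TH.Ex.Mu

open Cfsg Cfsg.Agent.H290.ElReg Cfsg.Agent.H921.Spor

namespace DgS

/-- faithful representations in characteristic different from `r` have degree at least `m` -/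
def LD (r m : ℕ) (X : Type) [Group X] : Prop :=
  r.Prime ∧ ∀ (F : Type) [Field F], (r : F) ≠ 0 → ∀ n, Fth n F X → m ≤ n

section

variable {X N : Type} [Group X] [Group N] {r m : ℕ}

theorem of_orb (e : N ≃* X) (hr : r.Prime) (h : Orb r m X) : LD r m N :=
  ⟨hr, fun _ _ hF n hf => h.bd hr hF n ((hf.congr e).pr r)⟩

theorem of_conf (e : N ≃* X) (hr : r.Prime) (h : Conf r m X) : LD r m N :=
  ⟨hr, fun _ _ hF n hf => h.bd hr hF n ((hf.congr e).pr r)⟩

theorem of_ls [Finite N] [IsSimpleGroup N] (hc : ¬ IsMulCommutative N) (e : N ≃* X) (hr : r.Prime)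
    (h : H203.LS.LS.{0, 0, 0} r m X) : LD r m N := by
  have hX : commutator N = ⊤ := (inferInstance : (commutator N).Normal).eq_bot_or_eq_top.resolve_left fun h =>
    hc ⟨⟨fun a b => commutatorElement_eq_one_iff_mul_comm.1 (Subgroup.mem_bot.1
      (h ▸ Subgroup.commutator_mem_commutator (Subgroup.mem_top a) (Subgroup.mem_top b)))⟩⟩
  refine ⟨hr, fun F _ hF n ⟨ρ, hρ⟩ => h N e.toMonoidHom e.surjective (fun x hx => ?_) hX F hF n ρ fun h1 => ?_⟩
  · rw [show x = 1 from e.map_eq_one_iff.1 hx]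
    exact one_mem _
  · exact hc ⟨⟨fun a b => hρ (by rw [h1]; rfl)⟩⟩

theorem ex_of (hc : ¬ IsMulCommutative N) (e : N ≃* X) : ∃ a b : X, a * b ≠ b * a := by
  by_contra h
  exact hc ⟨⟨fun a b => e.injective (by
    rw [map_mul, map_mul]
    exact by_contra fun h1 => h ⟨_, _, h1⟩)⟩⟩

/-- the permutation representation -/
theorem fth_index [Finite N] [IsSimpleGroup N] {U : Subgroup N} (hU : U ≠ ⊤) : Fth U.index ℚ N := by
  classical
  let e : N ⧸ U ≃ Fin U.index := Finite.equivFinOfCardEq rfl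
  let σ : N →* Equiv.Perm (Fin U.index) := e.permCongrHom.toMonoidHom.comp (MulAction.toPermHom N (N ⧸ U))
  refine ⟨((Matrix.permMatrixHom (R := ℚ)).comp σ).toHomUnits, (MonoidHom.ker_eq_bot_iff _).1
    ((MonoidHom.normal_ker _).eq_bot_or_eq_top.resolve_right fun h1 => hU ?_)⟩
  rw [eq_top_iff]
  intro g _
  have h2 : (σ g⁻¹)⁻¹.permMatrix ℚ = 1 := congrArg Units.val (MonoidHom.mem_ker.1 (h1 ▸ Subgroup.mem_top g⁻¹))
  have h3 := congrFun (congrFun h2 (e (1 : N))) (e (1 : N))
  rw [map_inv, inv_inv] at h3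
  have h4 : σ g (e (1 : N)) = e (1 : N) := by
    by_contra h5
    simp [Equiv.Perm.permMatrix, PEquiv.toMatrix_apply, Equiv.toPEquiv_apply, h5] at h3
  have h5 : g • ((1 : N) : N ⧸ U) = (1 : N) := e.injective (by simpa [σ] using h4)
  have h6 := QuotientGroup.eq.1 (show (((g * 1 : N)) : N ⧸ U) = (1 : N) from h5).symm
  rwa [inv_one, one_mul, mul_one] at h6

theorem LD.le {p : ℕ} (h : LD r m N) (hp : p.Prime) (hne : p ≠ r) (F : Type) [Field F] [CharP F p] (n : ℕ)
    (hf : Fth n F N) : m ≤ n :=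
  h.2 F (fun e => hne ((Nat.prime_dvd_prime_iff_eq hp h.1).1 ((CharP.cast_eq_zero_iff F p r).1 e))) n hf

/-- the numerical test for a row -/
def okR (t r m r' m' : ℕ) (x y : Ent) : Bool :=
  x.t == t && x.ou == 2 && x.al == 0 && y.t == t && y.ou == 2 && y.al == 0 && r != r' &&
    Nat.ble x.R m && (x.ex == r || x.ex == 1) && x.on == 0 && Nat.ble y.R m' && y.ex == 1 && (y.on == r || y.on == 0) &&
    x.lm == y.lm && (Nat.ble x.lm m || (x.lm - 1).factorial % t != 0)

theorem row [Finite N] [IsSimpleGroup N] (hc : ¬ IsMulCommutative N) (ho : Nat.card (Out N) ∣ 2) {t r' m' p n : ℕ}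
    {F : Type} [Field F] [CharP F p] (hp : p.Prime) (hn : n ≤ 82) (hf : Fth n F N) (ht : Nat.card N = t)
    (h : LD r m N) (h' : LD r' m' N) (x y : Ent) (hx : x ∈ tab ∨ 82 < m) (hy : y ∈ tab)
    (hk : okR t r m r' m' x y = true) : ∃ x ∈ tab, Is p N x := by
  unfold okR at hk
  simp only [Bool.and_eq_true, Bool.or_eq_true, beq_iff_eq, bne_iff_ne, Nat.ble_eq] at hk
  obtain ⟨⟨⟨⟨⟨⟨⟨⟨⟨⟨⟨⟨⟨⟨a1, a2⟩, a3⟩, b1⟩, b2⟩, b3⟩, c1⟩, c2⟩, c3⟩, c4⟩, c5⟩, c6⟩, c7⟩, c8⟩, c9⟩ := hk
  have aut : Nat.card (MulAut N) ∣ 2 * t := by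
    rw [← H934.OutB.card_out_mul N hc, ht]
    exact Nat.mul_dvd_mul_right ho _
  have idx : ∀ U : Subgroup N, U ≠ ⊤ → x.lm ≤ U.index := fun U hU => by
    rcases c9 with h1 | h1
    · exact h1.trans (h.2 ℚ (by exact_mod_cast h.1.ne_zero) _ (fth_index hU))
    · by_contra h2
      exact h1 (Nat.mod_eq_zero_of_dvd ((ht ▸ S0493.card_dvd_factorial U hU).trans (Nat.factorial_dvd_factorial (by omega))))
  have cn : ∀ z : Ent, z.t = t → z.al = 0 → ∀ s, s.Prime → {y : N | y ^ s = 1}.ncard ≤ cnt z s := fun z h1 h2 s _ => by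
    rw [cnt, h2, if_neg (by omega), if_neg (by omega), h1, ← ht]
    exact Set.ncard_le_card _
  have one : ¬ p ∣ 1 := hp.not_dvd_one
  by_cases hr : p = r
  · refine ⟨y, hy, ht.trans b1.symm, by rw [b1, b2]; exact aut, fun F _ _ n hf => c5.trans (h'.le hp (hr ▸ c1) F n hf),
      c6 ▸ one, by omega, c8 ▸ idx, cn y b1 b3, Or.inl b3⟩
  · refine ⟨x, hx.resolve_right fun h1 => ?_, ht.trans a1.symm, by rw [a1, a2]; exact aut,
      fun F _ _ n hf => c2.trans (h.le hp hr F n hf), ?_, Or.inl c4, idx, cn x a1 a3, Or.inl a3⟩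
    · have := h.le hp hr F n hf
      omega
    · rcases c3 with h1 | h1
      · rw [h1]
        exact fun h2 => hr ((Nat.prime_dvd_prime_iff_eq hp h.1).1 h2)
      · exact h1 ▸ one

end

/-- the entry with the order `t` and the degree `R` -/
def ent (t R : ℕ) : Ent := (tab.find? fun x => x.t == t && x.R == R).getD ⟨t, 2, 0, 1, 0, R, 0⟩

theorem ent_mem {t R : ℕ} (h : (tab.find? fun x => x.t == t && x.R == R).isSome = true) : ent t R ∈ tab := by
  obtain ⟨x, hx⟩ := Option.isSome_iff_exists.1 h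
  rw [ent, hx]
  exact List.mem_of_find?_eq_some hx

/-- the test for a row -/
def okS (t r m r' m' : ℕ) : Bool :=
  ((tab.find? fun x => x.t == t && x.R == m).isSome || Nat.blt 82 m) &&
    (tab.find? fun x => x.t == t && x.R == m').isSome && okR t r m r' m' (ent t m) (ent t m')

theorem row' {N : Type} [Group N] [Finite N] [IsSimpleGroup N] (hc : ¬ IsMulCommutative N) (ho : Nat.card (Out N) ∣ 2)
    {t r m r' m' p n : ℕ} {F : Type} [Field F] [CharP F p] (hp : p.Prime) (hn : n ≤ 82) (hf : Fth n F N)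
    (ht : Nat.card N = t) (h : LD r m N) (h' : LD r' m' N) (hk : okS t r m r' m' = true) : ∃ x ∈ tab, Is p N x := by
  unfold okS at hk
  simp only [Bool.and_eq_true, Bool.or_eq_true, Nat.blt_eq] at hk
  exact row hc ho hp hn hf ht h h' _ _ (hk.1.1.imp_left ent_mem) (ent_mem hk.1.2) hk.2

end DgS

open DgS NotCT.Orders in
/-- **[DEG-S]** -/
theorem boxDegS : BoxDegS := by
  intro p n F _ _ N _ _ _ hp hle hc hf _ h
  have ho : Nat.card (Out N) ∣ 2 := h.elim H149.Sp.card_out_dvd_two H889.Enum.out_tits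
  have R := @row' N _ _ _ hc ho
  rcases h with (q | q | q | q | q | q | q | q | q | q | q | q | q | q | q | q | q | q | q | q | q | q | q | q | q | q) | q
  · exact q.elim fun e => R hp hle hf (m11 q) (of_conf e (by norm_num) M24.M11_three)
      (of_conf e (by norm_num) M24.M11_eleven) (by decide +kernel)
  · exact q.elim fun e => R hp hle hf (m12 q) (of_conf e (by norm_num) M24.M12_three)
      (of_orb e (by norm_num) M24.M12_two) (by decide +kernel)
  · exact q.elim fun e => R hp hle hf (m22 q) (of_orb e (by norm_num) M24.M22_two)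
      (of_orb e (by norm_num) M24.M22_three) (by decide +kernel)
  · exact q.elim fun e => R hp hle hf (m23 q) (of_conf e (by norm_num) M24.M23_two)
      (of_conf e (by norm_num) M24.M23_twentythree) (by decide +kernel)
  · exact q.elim fun e => R hp hle hf (m24 q) (of_conf e (by norm_num) M24.M24_two)
      (of_conf e (by norm_num) M24.M24_twentythree) (by decide +kernel)
  · exact q.elim fun e => R hp hle hf (j1 q) (of_conf e (by norm_num) J1.J1_eleven)
      (of_conf e (by norm_num) J1.J1_nineteen) (by decide +kernel)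
  · exact q.elim fun e => R hp hle hf (j2 q) (of_orb e (by norm_num) J2.J2_two)
      (of_orb e (by norm_num) J2.J2_seven) (by decide +kernel)
  · have ht := j3 q
    obtain ⟨K, _, _, ω, hK, hω, ⟨e⟩⟩ := q
    have H := Cfsg.Agent.J3.Core.good_of_card hK hω
    exact R hp hle hf ht (of_orb e (by norm_num) (J3.J3_three hK H))
      (of_orb e (by norm_num) (J3.J3_two hK H)) (by decide +kernel)
  · exact q.elim fun e => R hp hle hf (j4 q) (of_conf e (by norm_num) (J4.J4_twentythree' e.symm.isSimpleGroup))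
      (of_conf e (by norm_num) J4.J4_two) (by decide +kernel)
  · exact q.elim fun e => R hp hle hf (co1 q) (of_orb e (by norm_num) McL.Co1_three)
      (of_conf e (by norm_num) Co.Co1_two) (by decide +kernel)
  · exact q.elim fun e => R hp hle hf (co2 q) (of_ls hc e (by norm_num) (H517.EP.McLDat.ls_co2 e.symm.isSimpleGroup))
      (of_orb e (by norm_num) McL.Co2_three) (by decide +kernel)
  · exact q.elim fun e => R hp hle hf (co3 q) (of_ls hc e (by norm_num) (H517.EP.McLDat.ls_co3 e.symm.isSimpleGroup))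
      (of_orb e (by norm_num) McL.Co3_three) (by decide +kernel)
  · exact q.elim fun e => R hp hle hf (mcl q) (of_ls hc e (by norm_num) (H517.EP.McLDat.ls_mcl e.symm.isSimpleGroup))
      (of_orb e (by norm_num) McL.McL_three) (by decide +kernel)
  · exact q.elim fun e => R hp hle hf (hs q) (of_orb e (by norm_num) Co.HS_two)
      (of_orb e (by norm_num) Co.HS_three) (by decide +kernel)
  · exact q.elim fun e => R hp hle hf (suz q) (of_orb e (by norm_num) Suz.Suz_three)
      (of_orb e (by norm_num) Suz.Suz_two) (by decide +kernel)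
  · exact q.elim fun e => R hp hle hf (he q) (of_orb e (by norm_num) He.He_seven)
      (of_orb e (by norm_num) He.He_five) (by decide +kernel)
  · exact q.elim fun e => R hp hle hf (ru q) (of_conf e (by norm_num) Ru.Ru_twentynine)
      (of_conf e (by norm_num) Ru.Ru_thirteen) (by decide +kernel)
  · exact q.elim fun e => R hp hle hf (on q) (of_orb e (by norm_num) (ON.ON_thirtyone e.symm.isSimpleGroup))
      (of_orb e (by norm_num) (ON.ON_eleven e.symm.isSimpleGroup)) (by decide +kernel)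
  · exact q.elim fun e => R hp hle hf (ly q) (of_orb e (by norm_num) H489.Deg.Ly.ly_three)
      (of_orb e (by norm_num) Ly.Ly_seven) (by decide +kernel)
  · exact q.elim fun e => have := e.symm.isSimpleGroup
      R hp hle hf (fi22 q) (of_ls hc e (by norm_num) (H806.Ls.fi22_ls_two (ex_of hc e)))
        (of_conf e (by norm_num) (Fi.Fi22_seven (ex_of hc e))) (by decide +kernel)
  · exact q.elim fun e => R hp hle hf (fi23 q) (of_orb e (by norm_num) (Fi.Fi23_three (ex_of hc e)))
      (of_conf e (by norm_num) (Fi.Fi23_seven (ex_of hc e))) (by decide +kernel)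
  · exact q.elim fun e => have := e.symm.isSimpleGroup
      R hp hle hf (fi24 q) (of_orb e (by norm_num) Fi24.Fi24_seven)
        (of_ls hc e (by norm_num) (H806.Ls.fi24_ls_two (ex_of hc e))) (by decide +kernel)
  · exact q.elim fun e => R hp hle hf (hn q) (of_ls hc e (by norm_num) H502.EP.HN.ls_five)
      (of_ls hc e (by norm_num) H502.EP.HN.ls_two) (by decide +kernel)
  · exact q.elim fun e => R hp hle hf (th q) (of_orb e (by norm_num) H840.EP.Th.th_seven)
      (of_orb e (by norm_num) H489.Deg.Th.th_two) (by decide +kernel)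
  · exact q.elim fun e => have := e.symm.isSimpleGroup
      R hp hle hf (b q) (of_ls hc e (by norm_num) (H806.Ls.b_ls_two (ex_of hc e)))
        (of_orb e (by norm_num) (Fi.B_three (ex_of hc e))) (by decide +kernel)
  · exact q.elim fun e => R hp hle hf (m q) (of_ls hc e (by norm_num) H444.EP.Mon.ls_two)
      (of_orb e (by norm_num) (Fi.M_three (ex_of hc e))) (by decide +kernel)
  · have ht := tits q
    obtain ⟨e⟩ := q
    exact R hp hle hf ht (of_orb (X := Lie.TitsGroup) e (by norm_num) Tits.Tits_five)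
      (of_orb (X := Lie.TitsGroup) e (by norm_num) Tits.Tits_two) (by decide +kernel)

end Cfsg.Agent.TH.Ex.Mu
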