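import Cfsg.Agent.TH.Ex.Mu.DegSB
import Cfsg.Agent.H921.SporMore
import Cfsg.Agent.H921.SporJ1
import Cfsg.Agent.H921.SporJ2
import Cfsg.Agent.H921.SporJ3
import Cfsg.Agent.H921.SporJ4
import Cfsg.Agent.H921.SporCo
import Cfsg.Agent.H921.SporMcL
import Cfsg.Agent.H517.EP.McLDat

/-!
# S3541, box `BoxDegS` (helper67): the first half and the box
-/

set_option autoImplicit false

namespace Cfsg.Agent.TH.Ex.Mu.SB

open Cfsg Cfsg.Agent.H290.ElReg Cfsg.Agent.H912.Bd Cfsg.Agent.H921.Spor Cfsg.Agent.NotCT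

/-- one entry for all characteristics -/
theorem row_one {N : Type} [Group N] [Finite N] [IsSimpleGroup N] (hc : ¬ IsMulCommutative N) {p t m lm : ℕ}
    (hp : p.Prime) (ht : Nat.card N = t) (ho : Nat.card (Out N) ∣ 2) (h : FB N 3 m) (h' : FB N 5 m)
    (hl : ∀ U : Subgroup N, U ≠ ⊤ → lm ≤ U.index) (i : ℕ) (hi : tab[i]? = some ⟨t, 2, m, 1, 0, lm, 0⟩) :
    ∃ x ∈ tab, Is p N x := by
  by_cases e : p = 3
  · subst e
    exact ⟨_, List.mem_of_getElem? hi, is_of hc hp ht ho h' (by norm_num) hp.not_dvd_one (Or.inl rfl) hl⟩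
  · exact ⟨_, List.mem_of_getElem? hi, is_of hc hp ht ho h
      (fun h2 => e ((Nat.prime_dvd_prime_iff_eq hp Nat.prime_three).1 h2)) hp.not_dvd_one (Or.inl rfl) hl⟩

/-- **the first half of `BoxDegS`** -/
theorem degSA : DegRow fun _ N _ => Spor.IsoM11 N ∨ Spor.IsoM12 N ∨ Spor.IsoM22 N ∨ Spor.IsoM23 N ∨ Spor.IsoM24 N ∨
    Spor.IsoJ1 N ∨ Spor.IsoJ2 N ∨ Spor.IsoJ3 N ∨ Spor.IsoJ4 N ∨ Spor.IsoCo1 N ∨ Spor.IsoCo2 N ∨ Spor.IsoCo3 N ∨
    Spor.IsoMcL N ∨ Spor.IsoHS N := by
  intro p n F _ _ N _ _ _ hp hn hc hf _ h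
  have ho : Nat.card (Out N) ∣ 2 := by
    rcases h with h | h | h | h | h | h | h | h | h | h | h | h | h | h
    all_goals exact H149.Sp.card_out_dvd_two (by unfold IsSporadicGroup; simp only [h, true_or, or_true])
  rcases h with h | h | h | h | h | h | h | h | h | h | h | h | h | h
  · have ht := Orders.m11 h
    obtain ⟨e⟩ := h
    exact row hc hp ht ho (by norm_num) (FB.of_conf (by norm_num) M24.M11_three e)
      (FB.of_conf (by norm_num) M24.M11_eleven e) (by norm_num) (idx_fact (l := 10) ht (by decide +kernel)) 22 6 rfl rfl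
  · have ht := Orders.m12 h
    obtain ⟨e⟩ := h
    exact row hc hp ht ho (by norm_num) (FB.of_conf (by norm_num) M24.M12_three e)
      (FB.of_orb (by norm_num) M24.M12_two e) (by norm_num) (idx_fact (l := 10) ht (by decide +kernel)) 23 9 rfl rfl
  · have ht := Orders.m22 h
    obtain ⟨e⟩ := h
    have h1 := FB.of_orb (by norm_num) M24.M22_two e
    exact row hc hp ht ho (by norm_num) h1 (FB.of_orb (by norm_num) M24.M22_three e) (by norm_num)
      (h1.idx (by norm_num)) 58 24 rfl rfl
  · have ht := Orders.m23 h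
    obtain ⟨e⟩ := h
    exact row hc hp ht ho (by norm_num) (FB.of_conf (by norm_num) M24.M23_two e)
      (FB.of_conf (by norm_num) M24.M23_twentythree e) (by norm_num) (idx_fact (l := 22) ht (by decide +kernel))
      61 37 rfl rfl
  · have ht := Orders.m24 h
    obtain ⟨e⟩ := h
    exact row hc hp ht ho (by norm_num) (FB.of_conf (by norm_num) M24.M24_two e)
      (FB.of_conf (by norm_num) M24.M24_twentythree e) (by norm_num) (idx_fact (l := 22) ht (by decide +kernel))
      64 38 rfl rfl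
  · have ht := Orders.j1 h
    obtain ⟨e⟩ := h
    exact row hc hp ht ho (by norm_num) (FB.of_conf (by norm_num) J1.J1_eleven e)
      (FB.of_conf (by norm_num) J1.J1_seven e) (by norm_num) (idx_fact (l := 18) ht (by decide +kernel)) 33 10 rfl rfl
  · have ht := Orders.j2 h
    obtain ⟨e⟩ := h
    have h1 := FB.of_orb (by norm_num) J2.J2_two e
    exact row hc hp ht ho (by norm_num) h1 (FB.of_orb (by norm_num) J2.J2_seven e) (by norm_num)
      (h1.idx (by norm_num)) 42 11 rfl rfl
  · have ht := Orders.j3 h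
    obtain ⟨K, _, _, ω, hK, hω, ⟨e⟩⟩ := h
    have h1 := FB.of_orb (by norm_num) (J3.J3_three hK (Cfsg.Agent.J3.Core.good_of_card hK hω)) e
    exact row hc hp ht ho (by norm_num) h1 (FB.of_orb (by norm_num) (J3.J3_two hK (Cfsg.Agent.J3.Core.good_of_card hK hω)) e) (by norm_num)
      (h1.idx (by norm_num)) 95 63 rfl rfl
  · have ht := Orders.j4 h
    obtain ⟨e⟩ := h
    exact row hc hp ht ho (by norm_num) (FB.of_conf (by norm_num) (J4.J4_twentythree' (simple e)) e)
      (FB.of_conf (by norm_num) J4.J4_two e) (by norm_num) (idx_fact (l := 42) ht (by decide +kernel)) 90 70 rfl rfl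
  · have ht := Orders.co1 h
    obtain ⟨e⟩ := h
    exact row hc hp ht ho (by norm_num) (FB.of_orb (by norm_num) McL.Co1_three e)
      (FB.of_conf (by norm_num) Co.Co1_two e) (by norm_num) (idx_fact (l := 23) ht (by decide +kernel)) 88 69 rfl rfl
  · have ht := Orders.co2 h
    obtain ⟨e⟩ := h
    exact row_one hc hp ht ho (FB.of_orb (by norm_num) McL.Co2_three e)
      (FB.of_ls hc (H517.EP.McLDat.ls_co2 (simple e)) e) (idx_fact (l := 22) ht (by decide +kernel)) 86 rfl
  · have ht := Orders.co3 h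
    obtain ⟨e⟩ := h
    exact row_one hc hp ht ho (FB.of_orb (by norm_num) McL.Co3_three e)
      (FB.of_ls hc (H517.EP.McLDat.ls_co3 (simple e)) e) (idx_fact (l := 22) ht (by decide +kernel)) 85 rfl
  · have ht := Orders.mcl h
    obtain ⟨e⟩ := h
    have h1 := FB.of_orb (by norm_num) McL.McL_three e
    exact row_one hc hp ht ho h1 (FB.of_ls hc (H517.EP.McLDat.ls_mcl (simple e)) e) (h1.idx (by norm_num)) 83 rfl
  · have ht := Orders.hs h
    obtain ⟨e⟩ := h
    have h1 := FB.of_orb (by norm_num) Co.HS_two e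
    exact row hc hp ht ho (by norm_num) h1 (FB.of_orb (by norm_num) Co.HS_three e) (by norm_num)
      (h1.idx (by norm_num)) 62 27 rfl rfl

/-- **`BoxDegS`** -/
theorem boxDegS : BoxDegS := by
  intro p n F _ _ N _ _ _ hp hn hc hf hl h
  have hA := degSA p n F N hp hn hc hf hl
  have hB := degSB p n F N hp hn hc hf hl
  rcases h with (h | h | h | h | h | h | h | h | h | h | h | h | h | h | h | h | h | h | h | h | h | h | h | h | h | h) | h
  all_goals first
    | (refine hA ?_; simp only [h, true_or, or_true]; done)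
    | (refine hB ?_; simp only [h, true_or, or_true]; done)

end Cfsg.Agent.TH.Ex.Mu.SB
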