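import Cfsg.Agent.TH.Ex.Mu.Defs
import Cfsg.Agent.TH.Ex.Si.Spec
import Cfsg.Agent.H149.Sp.Base
import Cfsg.Agent.H934.OutB
import Cfsg.Agent.H921.SporSuz
import Cfsg.Agent.H921.SporHe
import Cfsg.Agent.H921.SporRu
import Cfsg.Agent.H921.SporON11
import Cfsg.Agent.H921.SporLy
import Cfsg.Agent.H921.SporFi
import Cfsg.Agent.H921.SporFi24
import Cfsg.Agent.H921.SporTits
import Cfsg.Agent.H489.DegLy
import Cfsg.Agent.H489.DegTh
import Cfsg.Agent.H806.LsFiTwo
import Cfsg.Agent.H920.FiTwoMain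
import Cfsg.Agent.H502.EP.HN
import Cfsg.Agent.H840.EP.Th
import Cfsg.Agent.H444.EP.Mon
import Cfsg.Agent.H867.TitsOut

/-!
# S3541, box `BoxDegS`, second half (helper67): `Suz He Ru ON Ly Fi₂₂ Fi₂₃ Fi₂₄' HN Th B M` and the Tits group
-/

set_option autoImplicit false

namespace Cfsg.Agent.TH.Ex.Mu.SB

open Cfsg Cfsg.Agent.H290.ElReg Cfsg.Agent.H912.Bd Cfsg.Agent.H921.Spor Cfsg.Agent.NotCT
open scoped commutatorElement

/-- the degrees of the faithful representations in characteristic `≠ r` are at least `m` -/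
def FB (X : Type) [Group X] (r m : ℕ) : Prop :=
  ∀ (F : Type) [Field F], (r : F) ≠ 0 → ∀ n : ℕ, Fth n F X → m ≤ n

section

variable {X N : Type} [Group X] [Group N] {r m : ℕ}

theorem FB.of_bd (h : ∀ (F : Type) [Field F], (r : F) ≠ 0 → Bd F r m X) (e : N ≃* X) : FB N r m := by
  rintro F _ hF n ⟨ρ, hρ⟩
  refine h F hF n ⟨N, inferInstance, e.toMonoidHom, ρ, e.surjective, fun x hx y => ?_, ?_, ?_⟩
  · rw [e.injective (show e x = e 1 from hx.trans (map_one e).symm), one_mul, mul_one]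
  · rw [(MonoidHom.ker_eq_bot_iff _).2 e.injective, Subgroup.card_bot]
    exact Nat.coprime_one_left r
  · rw [(MonoidHom.ker_eq_bot_iff ρ).2 hρ]
    exact bot_le

theorem FB.of_orb (hr : r.Prime) (h : Orb r m X) (e : N ≃* X) : FB N r m :=
  FB.of_bd (fun _ _ hF => h.bd hr hF) e

theorem FB.of_conf (hr : r.Prime) (h : Conf r m X) (e : N ≃* X) : FB N r m :=
  FB.of_bd (fun _ _ hF => h.bd hr hF) e

theorem FB.of_ls [Finite N] [IsSimpleGroup N] (hc : ¬ IsMulCommutative N) (h : H203.LS.LS.{0, 0, 0} r m X)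
    (e : N ≃* X) : FB N r m := by
  rintro F _ hF n ⟨ρ, hρ⟩
  have hX : commutator N = ⊤ := (inferInstance : (commutator N).Normal).eq_bot_or_eq_top.resolve_left fun h =>
    hc ⟨⟨fun a b => commutatorElement_eq_one_iff_mul_comm.1 (Subgroup.mem_bot.1
      (h ▸ Subgroup.commutator_mem_commutator (Subgroup.mem_top a) (Subgroup.mem_top b)))⟩⟩
  refine h N e.toMonoidHom e.surjective ?_ hX F hF n ρ fun h1 => hc ⟨⟨fun a b => hρ ?_⟩⟩
  · rw [(MonoidHom.ker_eq_bot_iff _).2 e.injective]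
    exact bot_le
  · rw [h1]
    rfl

/-- the permutation representation -/
theorem FB.idx [Finite N] [IsSimpleGroup N] (h : FB N r m) (hr : r ≠ 0) (U : Subgroup N) (hU : U ≠ ⊤) :
    m ≤ U.index := by
  classical
  let e : N ⧸ U ≃ Fin U.index := Finite.equivFinOfCardEq rfl
  let σ : N →* Equiv.Perm (Fin U.index) := e.permCongrHom.toMonoidHom.comp (MulAction.toPermHom N (N ⧸ U))
  refine h ℚ (by exact_mod_cast hr) _ ⟨((Matrix.permMatrixHom (R := ℚ)).comp σ).toHomUnits, ?_⟩
  rw [← MonoidHom.ker_eq_bot_iff]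
  refine (MonoidHom.normal_ker _).eq_bot_or_eq_top.resolve_right fun h1 => hU ?_
  rw [eq_top_iff]
  intro g _
  have h0 : ((Matrix.permMatrixHom (R := ℚ)).comp σ).toHomUnits g⁻¹ = 1 :=
    MonoidHom.mem_ker.1 (h1 ▸ Subgroup.mem_top _)
  have h2 : (σ g⁻¹)⁻¹.permMatrix ℚ = 1 := congrArg Units.val h0
  have h3 := congrFun (congrFun h2 (e (1 : N))) (e (1 : N))
  rw [map_inv, inv_inv] at h3
  have h4 : σ g (e (1 : N)) = e (1 : N) := by
    by_contra h5
    simp [Equiv.Perm.permMatrix, PEquiv.toMatrix_apply, Equiv.toPEquiv_apply, h5] at h3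
  have h5 : g • ((1 : N) : N ⧸ U) = (1 : N) := e.injective (by simpa [σ] using h4)
  have h6 := QuotientGroup.eq.1 (show (((g * 1 : N)) : N ⧸ U) = (1 : N) from h5).symm
  rwa [inv_one, one_mul, mul_one] at h6

theorem idx_fact [Finite N] [IsSimpleGroup N] {t l : ℕ} (ht : Nat.card N = t) (h : ¬ t ∣ l.factorial)
    (U : Subgroup N) (hU : U ≠ ⊤) : l + 1 ≤ U.index := by
  by_contra h1
  exact h (ht ▸ (Si.card_dvd_factorial hU).trans (Nat.factorial_dvd_factorial (by omega)))

theorem is_of [Finite N] [IsSimpleGroup N] (hc : ¬ IsMulCommutative N) {p t ex on lm : ℕ} (hp : p.Prime)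
    (ht : Nat.card N = t) (ho : Nat.card (Out N) ∣ 2) (h : FB N r m) (hr : ¬ p ∣ r) (hex : ¬ p ∣ ex)
    (hon : on = 0 ∨ on = p) (hl : ∀ U : Subgroup N, U ≠ ⊤ → lm ≤ U.index) : Is p N ⟨t, 2, m, ex, on, lm, 0⟩ where
  card := ht
  aut := by
    rw [← H934.OutB.card_out_mul N hc, ht]
    exact Nat.mul_dvd_mul_right ho _
  deg F _ _ n hn := h F (fun e => hr ((CharP.cast_eq_zero_iff F p r).1 e)) n hn
  ex := hex
  on := hon
  idx := hl
  cnt s _ := by
    have h1 : cnt ⟨t, 2, m, ex, on, lm, 0⟩ s = t := by simp [cnt]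
    rw [h1, ← ht, ← Set.ncard_univ]
    exact Set.ncard_le_ncard (Set.subset_univ _)
  al := Or.inl rfl

/-- the two entries of a group -/
theorem row [Finite N] [IsSimpleGroup N] (hc : ¬ IsMulCommutative N) {p t r' m' lm : ℕ} (hp : p.Prime)
    (ht : Nat.card N = t) (ho : Nat.card (Out N) ∣ 2) (hr : r.Prime) (h : FB N r m) (h' : FB N r' m') (hr' : ¬ r ∣ r')
    (hl : ∀ U : Subgroup N, U ≠ ⊤ → lm ≤ U.index) (i j : ℕ) (hi : tab[i]? = some ⟨t, 2, m, r, 0, lm, 0⟩)
    (hj : tab[j]? = some ⟨t, 2, m', 1, r, lm, 0⟩) : ∃ x ∈ tab, Is p N x := by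
  by_cases e : p = r
  · subst e
    exact ⟨_, List.mem_of_getElem? hj, is_of hc hp ht ho h' hr' hp.not_dvd_one (Or.inr rfl) hl⟩
  · have h1 : ¬ p ∣ r := fun h2 => e ((Nat.prime_dvd_prime_iff_eq hp hr).1 h2)
    exact ⟨_, List.mem_of_getElem? hi, is_of hc hp ht ho h h1 h1 (Or.inl rfl) hl⟩

theorem nc (hc : ¬ IsMulCommutative N) (e : N ≃* X) : ∃ g h : X, g * h ≠ h * g := by
  by_contra h
  push Not at h
  exact hc ⟨⟨fun a b => e.injective (by rw [map_mul, map_mul, h])⟩⟩

theorem simple [IsSimpleGroup N] (e : N ≃* X) : IsSimpleGroup X :=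
  have := e.symm.toEquiv.nontrivial
  IsSimpleGroup.isSimpleGroup_of_surjective e.toMonoidHom e.surjective

end

theorem out_tits {N : Type} [Group N] [Finite N] (h : Lie.IsoTits N) : Nat.card (Out N) ∣ 2 := by
  have h1 := H867.TitsOut.card_out_le (T := N) h
  have h2 : 0 < Nat.card (Out N) := Nat.card_pos
  generalize Nat.card (Out N) = k at h1 h2
  interval_cases k <;> norm_num

/-- **the second half of `BoxDegS`** -/
theorem degSB : DegRow fun _ N _ => Spor.IsoSuz N ∨ Spor.IsoHe N ∨ Spor.IsoRu N ∨ Spor.IsoON N ∨ Spor.IsoLy N ∨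
    Spor.IsoFi22 N ∨ Spor.IsoFi23 N ∨ Spor.IsoFi24' N ∨ Spor.IsoHN N ∨ Spor.IsoTh N ∨ Spor.IsoB N ∨ Spor.IsoM N ∨
    Lie.IsoTits N := by
  intro p n F _ _ N _ _ _ hp hn hc hf _ h
  have ho : Nat.card (Out N) ∣ 2 := by
    rcases h with h | h | h | h | h | h | h | h | h | h | h | h | h
    all_goals first
      | exact out_tits h
      | exact H149.Sp.card_out_dvd_two (by unfold IsSporadicGroup; simp only [h, true_or, or_true])
  rcases h with h | h | h | h | h | h | h | h | h | h | h | h | h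
  · have ht := Orders.suz h
    obtain ⟨e⟩ := h
    have h1 := FB.of_orb (by norm_num) Suz.Suz_three e
    exact row hc hp ht ho (by norm_num) h1 (FB.of_orb (by norm_num) Suz.Suz_two e) (by norm_num)
      (h1.idx (by norm_num)) 115 66 rfl rfl
  · have ht := Orders.he h
    obtain ⟨e⟩ := h
    have h1 := FB.of_orb (by norm_num) He.He_seven e
    exact row hc hp ht ho (by norm_num) h1 (FB.of_orb (by norm_num) He.He_five e) (by norm_num)
      (h1.idx (by norm_num)) 122 97 rfl rfl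
  · have ht := Orders.ru h
    obtain ⟨e⟩ := h
    exact row hc hp ht ho (by norm_num) (FB.of_conf (by norm_num) Ru.Ru_twentynine e)
      (FB.of_conf (by norm_num) Ru.Ru_thirteen e) (by norm_num) (idx_fact (l := 28) ht (by decide +kernel)) 52 46 rfl rfl
  · have ht := Orders.on h
    obtain ⟨e⟩ := h
    exact row hc hp ht ho (by norm_num) (FB.of_orb (by norm_num) (ON.ON_thirtyone (simple e)) e)
      (FB.of_orb (by norm_num) (ON.ON_eleven (simple e)) e) (by norm_num) (idx_fact (l := 30) ht (by decide +kernel))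
      67 35 rfl rfl
  · have ht := Orders.ly h
    obtain ⟨e⟩ := h
    exact row hc hp ht ho (by norm_num) (FB.of_orb (by norm_num) H489.Deg.Ly.ly_three e)
      (FB.of_orb (by norm_num) Ly.Ly_seven e) (by norm_num) (idx_fact (l := 66) ht (by decide +kernel)) 54 13 rfl rfl
  · have ht := Orders.fi22 h
    obtain ⟨e⟩ := h
    have := simple e
    have h1 := FB.of_ls hc (H806.Ls.fi22_ls_two (nc hc e)) e
    exact row hc hp ht ho (by norm_num) h1 (FB.of_conf (by norm_num) (Fi.Fi22_seven (nc hc e)) e) (by norm_num)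
      (h1.idx (by norm_num)) 102 12 rfl rfl
  · have ht := Orders.fi23 h
    obtain ⟨e⟩ := h
    exact row hc hp ht ho (by norm_num) (FB.of_orb (by norm_num) (Fi.Fi23_three (nc hc e)) e)
      (FB.of_conf (by norm_num) (Fi.Fi23_seven (nc hc e)) e) (by norm_num) (idx_fact (l := 26) ht (by decide +kernel))
      28 14 rfl rfl
  · have ht := Orders.fi24 h
    obtain ⟨e⟩ := h
    have h1 := FB.of_orb (by norm_num) Fi24.Fi24_seven e
    exact row hc hp ht ho (by norm_num) h1 (FB.of_orb (by norm_num) (H920.FiTwo.fi24_two (nc hc e)) e) (by norm_num)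
      (h1.idx (by norm_num)) 124 103 rfl rfl
  · have ht := Orders.hn h
    obtain ⟨e⟩ := h
    exact row hc hp ht ho (by norm_num) (FB.of_ls hc H502.EP.HN.ls_five e) (FB.of_ls hc H502.EP.HN.ls_two e)
      (by norm_num) (idx_fact (l := 24) ht (by decide +kernel)) 87 76 rfl rfl
  · have ht := Orders.th h
    obtain ⟨e⟩ := h
    exact row hc hp ht ho (by norm_num) (FB.of_orb (by norm_num) H840.EP.Th.th_seven e)
      (FB.of_orb (by norm_num) H489.Deg.Th.th_two e) (by norm_num) (idx_fact (l := 30) ht (by decide +kernel))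
      98 78 rfl rfl
  · have ht := Orders.b h
    obtain ⟨e⟩ := h
    have := simple e
    exact row hc hp ht ho (by norm_num) (FB.of_ls hc (H806.Ls.b_ls_two (nc hc e)) e)
      (FB.of_orb (by norm_num) (Fi.B_three (nc hc e)) e) (by norm_num) (idx_fact (l := 46) ht (by decide +kernel))
      104 29 rfl rfl
  · have ht := Orders.m h
    obtain ⟨e⟩ := h
    have h1 := FB.of_ls hc H444.EP.Mon.ls_two e
    by_cases h2 : p = 2
    · subst h2
      exact ⟨_, List.mem_of_getElem? (i := 30) rfl, is_of hc hp ht ho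
        (FB.of_orb (by norm_num) (Fi.M_three (nc hc e)) e) (by norm_num) (by norm_num) (Or.inr rfl) (h1.idx (by norm_num))⟩
    · have h3 := h1 F (fun e => h2 ((Nat.prime_dvd_prime_iff_eq hp Nat.prime_two).1
        ((CharP.cast_eq_zero_iff F p 2).1 e))) n hf
      omega
  · have ht := Orders.tits h
    obtain ⟨e⟩ := h
    have h1 := FB.of_orb (by norm_num) Tits.Tits_five e
    exact row hc hp ht ho (by norm_num) h1 (FB.of_orb (by norm_num) Tits.Tits_two e) (by norm_num)
      (h1.idx (by norm_num)) 94 71 rfl rfl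

end Cfsg.Agent.TH.Ex.Mu.SB
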