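import Cfsg.Agent.TH.Ex.Mu.Defs

/-!
# S3541, several simple factors in `F₄, E₆, ²E₆, E₇, E₈`: the adjoint module (helper62)

* `Ge.exists_root` : two nontrivial characters of the root lattice are both nontrivial on some root;
* `Ge.mix`, `Ge.ce` : eigenvectors and centralizers;
* `boxGeo : BoxGeo`.
-/

set_option autoImplicit false
set_option maxHeartbeats 400000
set_option linter.unusedSectionVars false

namespace Cfsg.Agent.TH.Ex.Mu

open CoxeterSystem Cfsg Cfsg.Lie Cfsg.Lie.ChevalleyDatum Cfsg.Agent.H902 Cfsg.Agent.H316.U6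
open Cfsg.Agent.ChevalleyStructure Cfsg.Agent.ChevalleyStructure.CoxeterGeomTypes
open Cfsg.Agent.Tits.Roots Cfsg.Agent.Nodes.RGDChev Cfsg.Agent.BpExc Cfsg.Agent.BpExc.TorChev
open Cfsg.Agent.H469.Exc Cfsg.Agent.KFacts.RgdChevCoord Cfsg.Agent.H129.TorusChar Cfsg.Agent.DS.Ex Cfsg.Agent.DS.Nt Cfsg.Agent.SB.Exc.CI
open Subgroup (centralizer)

namespace Ge

/-! ### paths in the diagram -/

/-- any two nodes are joined by a root whose other nodes lie between them -/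
def Pth (D : ChevalleyDatum) (l : ℕ) (d : ℕ → ℕ → ℕ) : Prop :=
  ∀ i j : Fin l, i ≠ j → ∃ s : Fin D.nroots, vec D l s i = 1 ∧ vec D l s j = 1 ∧
    ∀ k : Fin l, k ≠ i → k ≠ j → vec D l s k ≠ 0 → d i k < d i j ∧ d k j < d i j

/-- the test for one root -/
def okR (D : ChevalleyDatum) (l : ℕ) (d : ℕ → ℕ → ℕ) (i j : Fin l) (s : ℕ) : Bool :=
  vec D l s i == 1 && vec D l s j == 1 && (List.finRange l).all fun k =>
    k == i || k == j || vec D l s k == 0 || (d i k).blt (d i j) && (d k j).blt (d i j)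

/-- the test -/
def okP (D : ChevalleyDatum) (l : ℕ) (d : ℕ → ℕ → ℕ) : Bool :=
  (List.finRange l).all fun i => (List.finRange l).all fun j => i == j || (List.range D.nroots).any (okR D l d i j)

theorem pth_of {D : ChevalleyDatum} {l : ℕ} {d : ℕ → ℕ → ℕ} (h : okP D l d = true) : Pth D l d := by
  intro i j hij
  simp only [okP, okR, List.all_eq_true, List.any_eq_true, List.mem_finRange, true_imp_iff, Bool.or_eq_true,
    Bool.and_eq_true, beq_iff_eq, List.mem_range, Nat.blt_eq] at h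
  obtain ⟨s, hs, ⟨h1, h2⟩, h3⟩ := (h i j).resolve_left hij
  exact ⟨⟨s, hs⟩, h1, h2, fun k a b c => (h3 k).resolve_left fun h4 => h4.elim (fun h5 => h5.elim a b) c⟩

/-- the distance in a chain -/
def dC (i j : ℕ) : ℕ := (i - j) + (j - i)

/-- the position in the long chain of a diagram of type `E` -/
def ps (i : ℕ) : ℕ := if i = 0 then 0 else if i = 1 then 2 else i - 1

/-- the distance in a diagram of type `E` -/
def dE (i j : ℕ) : ℕ := dC (ps i) (ps j) + (if i = 1 then 1 else 0) + (if j = 1 then 1 else 0)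

theorem pth_F4 : Pth chevF4 4 dC := pth_of (by decide +kernel)

theorem pth_E6 : Pth chevE6 6 dE := pth_of (by decide +kernel)

theorem pth_E7 : Pth chevE7 7 dE := pth_of (by decide +kernel)

theorem pth_E8 : Pth chevE8 8 dE := pth_of (by decide +kernel)

variable {D : ChevalleyDatum} {l : ℕ} {M : CoxeterMatrix (Fin l)}

theorem exists_pth (hp : IsType D l M) (hD : Typ D) : ∃ d, Pth D l d := by
  have hl := typ_l hp
  rcases hD with rfl | rfl | rfl | rfl
  · obtain rfl := hl.1 rfl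
    exact ⟨_, pth_F4⟩
  · obtain rfl := hl.2.1 rfl
    exact ⟨_, pth_E6⟩
  · obtain rfl := hl.2.2.1 rfl
    exact ⟨_, pth_E7⟩
  · obtain rfl := hl.2.2.2 rfl
    exact ⟨_, pth_E8⟩

theorem val_single {k : Type} [Field k] {φ : (Fin l → ℤ) → k} (h : IsMC φ) {x : Fin l → ℤ} {i : Fin l} (hi : x i = 1)
    (ho : ∀ j, j ≠ i → x j ≠ 0 → φ (sr j) = 1) : φ x = φ (sr i) := by
  rw [h.eq_prod x, Finset.prod_eq_single i (fun j _ hj => ?_) (by simp), hi, zpow_one]
  by_cases h0 : x j = 0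
  · rw [h0, zpow_zero]
  · rw [ho j hj h0, one_zpow]

/-- **two nontrivial characters are both nontrivial on some root** -/
theorem exists_root (hp : IsType D l M) (hD : Typ D) {k : Type} [Field k] {φ ψ : (Fin l → ℤ) → k} (hφ : IsMC φ)
    (hψ : IsMC ψ) (h1 : ∃ i, φ (sr i) ≠ 1) (h2 : ∃ j, ψ (sr j) ≠ 1) :
    ∃ s : Fin D.nroots, φ (vec D l s) ≠ 1 ∧ ψ (vec D l s) ≠ 1 := by
  classical
  obtain ⟨d, hd⟩ := exists_pth hp hD
  by_cases h3 : ∃ i, φ (sr i) ≠ 1 ∧ ψ (sr i) ≠ 1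
  · obtain ⟨i, h3⟩ := h3
    obtain ⟨s, hs, e⟩ := (isRoot_iff hp M.toCoxeterSystem (sr i)).1 (isRoot_sr M.toCoxeterSystem hp.isCartan i)
    exact ⟨⟨s, hs⟩, by rwa [e]⟩
  obtain ⟨i0, hi0⟩ := h1
  obtain ⟨j0, hj0⟩ := h2
  obtain ⟨⟨i, j⟩, h4, h5⟩ := Finset.exists_min_image
    (Finset.univ.filter fun x : Fin l × Fin l => φ (sr x.1) ≠ 1 ∧ ψ (sr x.2) ≠ 1) (fun x => d x.1 x.2)
    ⟨(i0, j0), Finset.mem_filter.2 ⟨Finset.mem_univ _, hi0, hj0⟩⟩
  obtain ⟨hi, hj⟩ := (Finset.mem_filter.1 h4).2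
  have hij : i ≠ j := fun e => h3 ⟨i, hi, e ▸ hj⟩
  obtain ⟨s, e1, e2, h6⟩ := hd i j hij
  refine ⟨s, ?_, ?_⟩
  · rw [val_single hφ e1 fun a ha h0 => ?_]
    · exact hi
    by_contra h7
    by_cases h8 : a = j
    · exact h3 ⟨j, h8 ▸ h7, hj⟩
    · exact absurd (h5 (a, j) (Finset.mem_filter.2 ⟨Finset.mem_univ _, h7, hj⟩)) (not_le.2 (h6 a ha h8 h0).2)
  · rw [val_single hψ e2 fun a ha h0 => ?_]
    · exact hj
    by_contra h7
    by_cases h8 : a = i
    · exact h3 ⟨i, hi, h8 ▸ h7⟩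
    · exact absurd (h5 (i, a) (Finset.mem_filter.2 ⟨Finset.mem_univ _, hi, h7⟩)) (not_le.2 (h6 a h8 ha h0).1)

/-! ### eigenvectors -/

variable {hp : IsType D l M} {p : ℕ} [Fact p.Prime]

theorem exists_ne_one {t : YY D p} (ht : t ∈ TT D (KK p)) (h : t ≠ 1) : ∃ i, cX hp t (sr i) ≠ 1 := by
  by_contra h1
  push Not at h1
  exact h (cX_inj hp ht (one_mem _) fun i => by rw [h1, cX_one])

theorem ad_single {g y : YY D p} (ht : g * y * g⁻¹ ∈ TT D (KK p)) (s : Fin D.nroots) :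
    ad D p y (ad D p g⁻¹ (Pi.single (Sum.inr s) 1)) =
      cX hp (g * y * g⁻¹) (vec D l s) • ad D p g⁻¹ (Pi.single (Sum.inr s) 1) := by
  have h1 : ad D p (g * y * g⁻¹) (Pi.single (Sum.inr s) 1) =
      cX hp (g * y * g⁻¹) (vec D l s) • (Pi.single (Sum.inr s) 1 : D.Idx → KK p) := by
    funext j
    rw [ad_tor (hp := hp) ht, Pi.smul_apply, smul_eq_mul]
    by_cases h : j = Sum.inr s
    · rw [h]
      rfl
    · rw [Pi.single_eq_of_ne h, mul_zero, mul_zero]
  rw [← map_smul, ← h1, ← ad_mul, ← ad_mul]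
  congr 2
  group

theorem mem_zpowers_mul {G : Type} [Group G] {y z : G} (h : y * z = z * y)
    (hc : (orderOf y).Coprime (orderOf z)) : ∃ n : ℕ, (y * z) ^ n = y := by
  obtain ⟨n, h1, h2⟩ := Nat.chineseRemainder hc 1 0
  refine ⟨n, ?_⟩
  rw [(show Commute y z from h).mul_pow, pow_eq_pow_iff_modEq.2 h1, pow_eq_pow_iff_modEq.2 h2, pow_one, pow_zero, mul_one]

theorem mix (hp : IsType D l M) (hD : Typ D) {y z : YY D p} (h : y * z = z * y) (hy : (orderOf y).Prime)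
    (hz : (orderOf z).Prime) (hyp : orderOf y ≠ p) (hzp : orderOf z ≠ p) (hyz : orderOf y ≠ orderOf z) :
    ∃ (v : D.Idx → KK p) (a b : KK p), v ≠ 0 ∧ a ≠ 1 ∧ b ≠ 1 ∧ ad D p y v = a • v ∧ ad D p z v = b • v := by
  have hc : (orderOf y).Coprime (orderOf z) := (Nat.coprime_primes hy hz).2 hyz
  obtain ⟨g, hg⟩ := H944.TorAnyChev.exists_conj_mem_TT hp p (TorAll.hAlg_of_isAlgebraic p _) (x := y * z)
    (q := orderOf y * orderOf z) (mul_ne_zero hy.ne_zero hz.ne_zero)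
    (Nat.Coprime.mul_left ((Nat.coprime_primes hy Fact.out).2 hyp) ((Nat.coprime_primes hz Fact.out).2 hzp)) (by
      rw [(show Commute y z from h).mul_pow, pow_mul, pow_orderOf_eq_one, one_pow, one_mul, mul_comm, pow_mul,
        pow_orderOf_eq_one, one_pow])
  obtain ⟨m, hm⟩ := mem_zpowers_mul h hc
  obtain ⟨n, hn⟩ := mem_zpowers_mul h.symm hc.symm
  have h1 : g * y * g⁻¹ ∈ TT D (KK p) := by
    have h0 := pow_mem hg m
    rwa [conj_pow, hm] at h0
  have h2 : g * z * g⁻¹ ∈ TT D (KK p) := by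
    have h0 := pow_mem hg n
    rwa [conj_pow, h, hn] at h0
  have h3 : ∀ x : YY D p, (orderOf x).Prime → g * x * g⁻¹ ≠ 1 := fun x hx e => by
    rw [conj_eq_one_iff.1 e, orderOf_one] at hx
    exact Nat.not_prime_one hx
  obtain ⟨s, h4, h5⟩ := exists_root hp hD (isMC_cX hp h1) (isMC_cX hp h2) (exists_ne_one h1 (h3 y hy))
    (exists_ne_one h2 (h3 z hz))
  refine ⟨_, _, _, fun e => ?_, h4, h5, ad_single h1 s, ad_single h2 s⟩
  have h6 := congrArg (ad D p g) e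
  rw [← ad_mul, mul_inv_cancel, ad_one, map_zero] at h6
  simpa using congrFun h6 (Sum.inr s)

/-! ### multiplicities -/

open Classical in
/-- the roots with the value `c` -/
noncomputable def rs (hp : IsType D l M) (t : YY D p) (c : KK p) : Finset (Fin D.nroots) :=
  Finset.univ.filter fun s => cX hp t (vec D l s) = c

theorem mem_rs {t : YY D p} {c : KK p} {s : Fin D.nroots} : s ∈ rs hp t c ↔ cX hp t (vec D l s) = c := by
  simp [rs]

theorem ev_rs {t : YY D p} (ht : t ∈ TT D (KK p)) {c : KK p} (hc : c ≠ 1) : DS.NT.ev (ad D p) t c = (rs hp t c).card := by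
  rw [ev_tor (hp := hp) ht, if_neg hc, zero_add]
  rfl

theorem rs_inv {t : YY D p} (ht : t ∈ TT D (KK p)) {c : KK p} (hc : c ≠ 1) :
    (rs hp t c⁻¹).card = (rs hp t c).card := by
  rw [← ev_rs ht hc, ← ev_rs ht (inv_ne_one.2 hc)]
  exact ev_inv hp (g := 1) (by simpa using ht) c

variable {e : ℕ} {σ : MulAut (YY D p)} {g : (Fin l → ℤ) ≃+ (Fin l → ℤ)} {r : ℕ} {t : YY D p} {ζ : KK p}
  {c : Fin l → ℕ} {c0 : ℕ}

theorem rs_pow (S : Sit hp e σ g r t ζ c c0) (a : KK p) : (rs hp t a).card ≤ (rs hp t (a ^ p ^ e)).card := by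
  have h1 : ∀ s : Fin D.nroots, ∃ s' : Fin D.nroots, vec D l s' = g (vec D l s) := fun s => by
    obtain ⟨s', hs', e⟩ := (isRoot_iff hp M.toCoxeterSystem _).1
      ((S.fr.root _).2 (isRoot_vec hp M.toCoxeterSystem s.2))
    exact ⟨⟨s', hs'⟩, e⟩
  choose f hf using h1
  refine Finset.card_le_card_of_injOn f (fun s hs => ?_) fun s _ s' _ h => ?_
  · have h2 := cX_sigma hp M.toCoxeterSystem S.frob S.fr S.mem (vec D l s)
    rw [S.fix, ← hf, mem_rs.1 hs] at h2
    exact mem_rs.2 h2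
  · have h2 := hf s
    rw [h, hf] at h2
    exact Fin.ext (vec_inj hp s.2 s'.2 (g.injective h2).symm)

theorem rs_pow' (S : Sit hp e σ g r t ζ c c0) (a : KK p) (i : ℕ) :
    (rs hp t a).card ≤ (rs hp t (a ^ (p ^ e) ^ i)).card := by
  induction i with
  | zero => rw [pow_zero, pow_one]
  | succ i ih =>
    rw [pow_succ, pow_mul]
    exact ih.trans (rs_pow S _)

theorem orb_eq (q s : ℕ) : orb q s = ((Finset.range s).filter fun j =>
    ∃ i < s, j = q ^ i % s ∨ j + q ^ i % s = s).card := by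
  classical
  unfold orb
  rw [← List.toFinset_card_of_nodup (List.nodup_range.filter _)]
  congr 1
  ext j
  simp

/-- **the number of the roots which are trivial on `t`** -/
theorem count (S : Sit hp e σ g r t ζ c c0) {a : KK p} (ha : a ≠ 1) {R : ℕ} (h0 : 0 < R) (hR : R ≤ (rs hp t a).card) :
    (rs hp t 1).card + orb (p ^ e) r * R ≤ D.nroots := by
  classical
  have hr := S.prime
  have := Fact.mk hr
  obtain ⟨s, hs⟩ := Finset.card_pos.1 (h0.trans_le hR)
  have h1 : a ^ r = 1 := by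
    rw [← mem_rs.1 hs, S.chr, ← zpow_natCast, ← zpow_mul, mul_comm, zpow_mul, zpow_natCast, S.prim.pow_eq_one, one_zpow]
  have h2 : IsPrimitiveRoot a r := by
    have h3 := IsPrimitiveRoot.orderOf a
    rwa [orderOf_eq_prime h1 ha] at h3
  have h3 : ∀ i, (p ^ e) ^ i % r ≠ 0 := fun i h => S.ne
    ((Nat.prime_dvd_prime_iff_eq hr Fact.out).1 (hr.dvd_of_dvd_pow (hr.dvd_of_dvd_pow (Nat.dvd_of_mod_eq_zero h))))
  have h4 : ∀ i, a ^ ((p ^ e) ^ i % r) = a ^ (p ^ e) ^ i := fun i => (pow_eq_pow_mod _ h1).symm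
  rw [orb_eq]
  set L := (Finset.range r).filter fun j => ∃ i < r, j = (p ^ e) ^ i % r ∨ j + (p ^ e) ^ i % r = r with hL
  have h5 : ∀ j ∈ L, j ≠ 0 ∧ j < r ∧ R ≤ (rs hp t (a ^ j)).card := fun j hj => by
    obtain ⟨h6, i, -, h7⟩ := Finset.mem_filter.1 hj
    have h8 := Nat.mod_lt ((p ^ e) ^ i) hr.pos
    have h9 := hR.trans (rs_pow' S a i)
    rw [← h4] at h9
    rcases h7 with h7 | h7
    · exact ⟨h7 ▸ h3 i, Finset.mem_range.1 h6, h7 ▸ h9⟩
    · refine ⟨by omega, Finset.mem_range.1 h6, ?_⟩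
      have h10 : a ^ j = (a ^ ((p ^ e) ^ i % r))⁻¹ := eq_inv_of_mul_eq_one_left (by rw [← pow_add, h7, h1])
      rw [h10, rs_inv S.mem (h2.pow_ne_one_of_pos_of_lt (h3 i) h8)]
      exact h9
  have h6 : 0 ∉ L := fun h => (h5 0 h).1 rfl
  have h7 : ∀ j ∈ insert 0 L, j < r := fun j hj => by
    rcases Finset.mem_insert.1 hj with rfl | hj
    exacts [hr.pos, (h5 j hj).2.1]
  have h8 := Finset.card_biUnion (s := insert 0 L) (t := fun j => rs hp t (a ^ j)) fun i hi j hj hij =>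
    Finset.disjoint_left.2 fun s h h' => hij (h2.pow_inj (h7 i hi) (h7 j hj) ((mem_rs.1 h).symm.trans (mem_rs.1 h')))
  have h9 := Finset.card_le_univ ((insert 0 L).biUnion fun j => rs hp t (a ^ j))
  rw [h8, Finset.sum_insert h6, pow_zero, Fintype.card_fin] at h9
  have h10 := Finset.card_nsmul_le_sum L (fun j => (rs hp t (a ^ j)).card) R fun j hj => (h5 j hj).2.2
  rw [smul_eq_mul] at h10
  omega

variable {q : ℕ} {K : Type} [Group K]

theorem ce (m : MData hp p q K) (y : K) (h1 : (orderOf y).Prime) (h2 : orderOf y ≠ p) {a : KK p} (ha : a ≠ 1) {R : ℕ}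
    (h0 : 0 < R) (hR : R ≤ DS.NT.ev (ad D p) (m.ι y) a) : orb q (orderOf y) * R ≤ D.nroots ∧
      Nat.card (centralizer ({y} : Set K)) ≤
        H931.KC.nmk D l * (q ^ (D.nroots - orb q (orderOf y) * R) * (q + 1) ^ l) := by
  have h3 : orderOf (m.ι y) = orderOf y := orderOf_injective _ m.inj y
  obtain ⟨x, σ', w, ζ, c, c0, S, h⟩ := exists_sit (hp := hp) m.he m.frob m.fr (m.fix y) (h3 ▸ h1) (h3 ▸ h2)
  rw [← ev_conj x, ev_rs (hp := hp) S.mem ha] at hR
  have h4 := count S ha h0 hR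
  have h5 := S.card_le (n := D.nroots - orb (p ^ m.e) (orderOf (m.ι y)) * R) (by
    rw [dd_tor hp S.mem]
    change l + (rs hp _ 1).card ≤ _
    omega)
  rw [← h, m.hq, h3] at h5
  rw [m.hq, h3] at h4
  have : Finite (DL.fix m.σ) := m.fin
  exact ⟨by omega, (Si.card_cent_le m.inj (DL.fix m.σ) m.fix y).trans h5⟩

theorem f18 (m : MData hp p q K) (hD : D = chevF4) (y : K) (h1 : (orderOf y).Prime) (h2 : orderOf y ≠ p)
    (h4 : orderOf y ≠ 2) : Nat.card (centralizer ({y} : Set K)) ≤ q ^ 18 * (q + 1) ^ 4 := by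
  subst hD
  obtain rfl := (typ_l hp).1 rfl
  have h3 : orderOf (m.ι y) = orderOf y := orderOf_injective _ m.inj y
  obtain ⟨x, σ', w, ζ, c, c0, S, h⟩ := exists_sit (hp := hp) m.he m.frob m.fr (m.fix y) (h3 ▸ h1) (h3 ▸ h2)
  have h5 := S.card_le' ((nK_F4 hp S.prime S.kac S.nt).2 (h3 ▸ h4))
  rw [H931.KC.nmk_F4, one_mul, ← h, m.hq] at h5
  have : Finite (DL.fix m.σ) := m.fin
  exact (Si.card_cent_le m.inj (DL.fix m.σ) m.fix y).trans h5

theorem ad_inj : Function.Injective (ad D p) := fun _ _ h =>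
  Subtype.ext (Units.ext (Matrix.toLin'.injective h))

/-- **the general form** -/
theorem hasGeo (m : MData hp p q K) (hD : Typ D) {Y : Art.Sh} (h1 : l + D.nroots = Si.dim Y) (h2 : D.nroots = NR Y)
    (h3 : l = rk Y) (h4 : H931.KC.nmk D l = nmk Y) (h5 : Y = .F4 → D = chevF4) : HasGeo Y p q K := by
  have h6 : ∀ y, orderOf (m.ι y) = orderOf y := orderOf_injective _ m.inj
  refine ⟨KK p, D.Idx → KK p, inferInstance, inferInstance, inferInstance, inferInstance, inferInstance,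
    (ad D p).comp m.ι, (finrank_ad hp).trans h1, ad_inj.comp m.inj, fun y z h a1 a2 a3 a4 a5 => ?_,
    fun y a1 a2 a R a3 a4 a5 => ?_, fun h y => f18 m (h5 h) y⟩
  · exact mix hp hD (by rw [← map_mul, h, map_mul]) (h6 y ▸ a1) (h6 z ▸ a2) (h6 y ▸ a3) (h6 z ▸ a4)
      (by rw [h6, h6]; exact a5)
  · rw [← h2, ← h3, ← h4]
    exact ce m y a1 a2 a3 a4 a5

end Ge

open Ge

/-- [GEO] -/
theorem boxGeo : BoxGeo where
  f4 F _ _ p _ _ := by
    obtain ⟨m, -⟩ := mdata_untw (r := p) hpF4 (Si.ne_of_rank (by decide)) (Si.ne_of_rank (by decide)) F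
    exact hasGeo m (Or.inl rfl) (by decide) (by decide) rfl H931.KC.nmk_F4 fun _ => rfl
  e6 F _ _ p _ _ := by
    obtain ⟨m, -⟩ := mdata_untw (r := p) hpE6 (Si.ne_of_rank (by decide)) (Si.ne_of_rank (by decide)) F
    exact hasGeo m (Or.inr (Or.inl rfl)) (by decide) (by decide) rfl H931.KC.nmk_E6 fun h => by cases h
  e7 F _ _ p _ _ := by
    obtain ⟨m, -⟩ := mdata_untw (r := p) hpE7 (Si.ne_of_rank (by decide)) (Si.ne_of_rank (by decide)) F
    exact hasGeo m (Or.inr (Or.inr (Or.inl rfl))) (by decide) (by decide) rfl H931.KC.nmk_E7 fun h => by cases h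
  e8 F _ _ p _ _ := by
    obtain ⟨m, -⟩ := mdata_untw (r := p) hpE8 (Si.ne_of_rank (by decide)) (Si.ne_of_rank (by decide)) F
    exact hasGeo m (Or.inr (Or.inr (Or.inr rfl))) (by decide) (by decide) rfl H931.KC.nmk_E8 fun h => by cases h
  te6 F _ _ p _ _ q hq hF := by
    obtain ⟨m⟩ := mdata_twE6 (r := p) hq hF
    exact hasGeo m (Or.inr (Or.inl rfl)) (by decide) (by decide) rfl H931.KC.nmk_E6 fun h => by cases h

end Cfsg.Agent.TH.Ex.Mu
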